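/-
Values of left-normed commutators and the coprime product condition on them
(criterion of Baumslag–Wiegold type for the terms of the lower central series).
-/
import Mathlib
import Cfsg.Agent.OddLocal.Basic
import Cfsg.Agent.Core.Cores
import Cfsg.Agent.Core.Fitting

set_option linter.unusedSectionVars false
set_option linter.style.haveILetI false
set_option autoImplicit false

namespace Cfsg.Agent.CommVal

open scoped commutatorElement

universe u

variable {G : Type u} [Group G]

/-- The values of the left-normed commutator word of length `k + 1`. -/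
def Val (G : Type*) [Group G] : ℕ → Set G
  | 0 => Set.univ
  | j + 1 => {x | ∃ a ∈ Val G j, ∃ b : G, ⁅a, b⁆ = x}

/-- The consequence of the product-order condition that is used: a product of coprime values
whose order divides that of the second factor has trivial first factor. -/
def Cond (G : Type*) [Group G] (k : ℕ) : Prop :=
  ∀ x ∈ Val G k, ∀ y ∈ Val G k, (orderOf x).Coprime (orderOf y) →
    orderOf (x * y) ∣ orderOf y → x = 1

/-- The map `u ↦ [u, g]`. -/
def phi (g u : G) : G := ⁅u, g⁆

theorem val_map {H : Type*} [Group H] (f : G →* H) :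
    ∀ (k : ℕ) {x : G}, x ∈ Val G k → f x ∈ Val H k
  | 0, _, _ => Set.mem_univ _
  | k + 1, _, ⟨a, ha, b, hab⟩ => ⟨f a, val_map f k ha, f b, by rw [← hab, map_commutatorElement]⟩

theorem val_conj {k : ℕ} {x : G} (hx : x ∈ Val G k) (g : G) : g * x * g⁻¹ ∈ Val G k :=
  val_map (MulAut.conj g).toMonoidHom k hx

theorem val_succ_subset : ∀ (k : ℕ), Val G (k + 1) ⊆ Val G k
  | 0 => fun _ _ => Set.mem_univ _
  | k + 1 => fun _ ⟨a, ha, b, hab⟩ => ⟨a, val_succ_subset k ha, b, hab⟩

theorem val_mono {i j : ℕ} (h : i ≤ j) : Val G j ⊆ Val G i := by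
  induction h with
  | refl => exact subset_rfl
  | step _ ih => exact (val_succ_subset _).trans ih

theorem val_comm {k : ℕ} {x : G} (hx : x ∈ Val G k) (u : G) : ⁅x, u⁆ ∈ Val G k :=
  val_succ_subset k ⟨x, hx, u, rfl⟩

theorem iterate_phi_mem_val (g u : G) : ∀ k : ℕ, (phi g)^[k] u ∈ Val G k
  | 0 => Set.mem_univ _
  | k + 1 => by
    rw [Function.iterate_succ_apply']
    exact ⟨_, iterate_phi_mem_val g u k, g, rfl⟩

theorem Cond.of_hom {H : Type*} [Group H] {k : ℕ} (hC : Cond G k) (f : H →* G)
    (hf : Function.Injective f) : Cond H k := fun x hx y hy hco hdvd =>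
  hf (by
    rw [map_one]
    refine hC _ (val_map f k hx) _ (val_map f k hy) ?_ ?_
    · rwa [orderOf_injective f hf, orderOf_injective f hf]
    · rwa [← map_mul, orderOf_injective f hf, orderOf_injective f hf])

theorem Cond.subgroup {k : ℕ} (hC : Cond G k) (H : Subgroup G) : Cond H k :=
  hC.of_hom H.subtype H.subtype_injective

theorem Cond.succ {k : ℕ} (hC : Cond G k) : Cond G (k + 1) := fun x hx y hy =>
  hC x (val_succ_subset k hx) y (val_succ_subset k hy)

/-- `phi g` stabilizes a subgroup normalized by `g`. -/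
theorem phi_mem {P : Subgroup G} {g u : G} (hg : g ∈ Subgroup.normalizer (P : Set G))
    (hu : u ∈ P) : phi g u ∈ P := by
  rw [phi, commutatorElement_def, show u * g * u⁻¹ * g⁻¹ = u * (g * u⁻¹ * g⁻¹) by group]
  exact mul_mem hu ((Subgroup.mem_normalizer_iff.mp hg _).mp (inv_mem hu))

theorem iterate_phi_mem {P : Subgroup G} {g u : G} (hg : g ∈ Subgroup.normalizer (P : Set G))
    (hu : u ∈ P) : ∀ k : ℕ, (phi g)^[k] u ∈ P
  | 0 => hu
  | k + 1 => by
    rw [Function.iterate_succ_apply']
    exact phi_mem hg (iterate_phi_mem hg hu k)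

/-- If `[[u, g], g] = 1` and `[u, g]` has order prime to that of `g` then `[u, g] = 1`. -/
theorem phi_eq_one_of_phi_phi {g u : G} (hco : (orderOf (phi g u)).Coprime (orderOf g))
    (h : phi g (phi g u) = 1) : phi g u = 1 := by
  have hc : Commute (phi g u) g := commutatorElement_eq_one_iff_commute.mp h
  have ho := hc.orderOf_mul_eq_mul_orderOf_of_coprime hco
  have hconj : phi g u * g = u * g * u⁻¹ := by simp [phi, commutatorElement_def]
  have ho2 : orderOf (u * g * u⁻¹) = orderOf g :=
    orderOf_injective (MulAut.conj u).toMonoidHom (MulAut.conj u).injective g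
  rw [hconj, ho2] at ho
  by_cases hg : orderOf g = 0
  · rw [hg, Nat.coprime_zero_right] at hco
    exact orderOf_eq_one_iff.mp hco
  · exact orderOf_eq_one_iff.mp ((Nat.mul_eq_right hg).mp ho.symm)

/-- Iterated coprime commutators with a fixed element do not vanish. -/
theorem phi_eq_one_of_iterate [Finite G] {P : Subgroup G} {g : G}
    (hg : g ∈ Subgroup.normalizer (P : Set G)) (hco : (Nat.card P).Coprime (orderOf g)) {u : G}
    (hu : u ∈ P) : ∀ k : ℕ, (phi g)^[k + 1] u = 1 → phi g u = 1
  | 0, h => h
  | k + 1, h => by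
    refine phi_eq_one_of_iterate hg hco hu k ?_
    rw [Function.iterate_succ_apply'] at h ⊢
    refine phi_eq_one_of_phi_phi ?_ ?_
    · exact hco.coprime_dvd_left (P.orderOf_dvd_natCard (phi_mem hg (iterate_phi_mem hg hu k)))
    · rwa [Function.iterate_succ_apply'] at h

/-- **The centralizing lemma**: a value centralizes every subgroup of coprime order that it
normalizes. -/
theorem Cond.commute [Finite G] {k : ℕ} (hC : Cond G k) {y : G} (hy : y ∈ Val G k)
    {P : Subgroup G} (hyP : y ∈ Subgroup.normalizer (P : Set G))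
    (hco : (Nat.card P).Coprime (orderOf y)) {u : G} (hu : u ∈ P) : Commute u y := by
  refine commutatorElement_eq_one_iff_commute.mp (phi_eq_one_of_iterate hyP hco hu k ?_)
  rw [Function.iterate_succ_apply']
  set z := (phi y)^[k] u
  have hzP : z ∈ P := iterate_phi_mem hyP hu k
  have hz : z ∈ Val G k := iterate_phi_mem_val y u k
  refine hC _ (val_comm hz y) y hy (hco.coprime_dvd_left (P.orderOf_dvd_natCard (phi_mem hyP hzP))) ?_
  have hconj : phi y z * y = z * y * z⁻¹ := by simp [phi, commutatorElement_def]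
  have ho : orderOf (z * y * z⁻¹) = orderOf y :=
    orderOf_injective (MulAut.conj z).toMonoidHom (MulAut.conj z).injective y
  rw [hconj, ho]

theorem val_subset_lowerCentralSeries :
    ∀ k : ℕ, Val G k ⊆ ((⊤ : Subgroup G).lowerCentralSeries k : Set G)
  | 0 => fun _ _ => Subgroup.mem_top _
  | k + 1 => fun _ ⟨a, ha, b, hab⟩ => by
    rw [← hab, SetLike.mem_coe, Subgroup.lowerCentralSeries_succ]
    exact Subgroup.commutator_mem_commutator (val_subset_lowerCentralSeries k ha)
      (Subgroup.mem_top b)

/-- The lower central term is generated by the values. -/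
theorem lowerCentralSeries_eq_closure :
    ∀ k : ℕ, (⊤ : Subgroup G).lowerCentralSeries k = Subgroup.closure (Val G k)
  | 0 => by
    rw [Subgroup.lowerCentralSeries_zero]
    exact (Subgroup.closure_univ).symm
  | k + 1 => by
    refine le_antisymm ?_ ((Subgroup.closure_le _).mpr (val_subset_lowerCentralSeries (k + 1)))
    set N := Subgroup.closure (Val G (k + 1))
    haveI hN : N.Normal := ⟨fun n hn g => by
      have : N ≤ N.comap (MulAut.conj g).toMonoidHom :=
        (Subgroup.closure_le _).mpr fun x hx => Subgroup.subset_closure (val_conj hx g)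
      simpa using this hn⟩
    rw [Subgroup.lowerCentralSeries_succ, Subgroup.commutator_le, lowerCentralSeries_eq_closure k]
    intro a ha b _
    induction ha using Subgroup.closure_induction with
    | mem x hx => exact Subgroup.subset_closure ⟨x, hx, b, rfl⟩
    | one => simp [one_mem]
    | mul x y _ _ hx hy =>
      rw [show ⁅x * y, b⁆ = x * ⁅y, b⁆ * x⁻¹ * ⁅x, b⁆ by
        simp only [commutatorElement_def]; group]
      exact mul_mem (hN.conj_mem _ hy x) hx
    | inv x _ hx =>
      rw [show ⁅x⁻¹, b⁆ = x⁻¹ * ⁅x, b⁆⁻¹ * x⁻¹⁻¹ by simp only [commutatorElement_def]; group]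
      exact hN.conj_mem _ (inv_mem hx) _

/-- The values written as iterated folds over tuples. -/
theorem mem_val_iff : ∀ (k : ℕ) (x : G), x ∈ Val G k ↔ ∃ f : Fin (k + 1) → G,
    x = ((List.ofFn f).tail).foldl (fun a b => a * b * a⁻¹ * b⁻¹) (f 0)
  | 0, x => by
    refine iff_of_true (Set.mem_univ _) ⟨fun _ => x, ?_⟩
    simp
  | k + 1, x => by
    constructor
    · rintro ⟨a, ha, b, rfl⟩
      obtain ⟨f, rfl⟩ := (mem_val_iff k a).mp ha
      refine ⟨Fin.snoc f b, ?_⟩
      conv_rhs => rw [List.ofFn_succ']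
      simp only [Fin.snoc_castSucc, Fin.snoc_last, List.concat_eq_append]
      rw [List.tail_append_of_ne_nil (by simp [List.ofFn_eq_nil_iff]), List.foldl_append]
      rw [show (Fin.snoc f b : Fin (k + 2) → G) 0 = f 0 from
        Fin.snoc_castSucc (α := fun _ => G) b f 0]
      simp [commutatorElement_def]
    · rintro ⟨f, rfl⟩
      refine ⟨_, (mem_val_iff k _).mpr ⟨f ∘ Fin.castSucc, rfl⟩, f (Fin.last _), ?_⟩
      rw [List.ofFn_succ' f]
      simp only [List.concat_eq_append]
      rw [List.tail_append_of_ne_nil (by simp [List.ofFn_eq_nil_iff]), List.foldl_append]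
      simp [commutatorElement_def, Function.comp_def]

/-- A `q`-element centralizing `O_{q'}` lies in `O_q` when a term of the lower central series is
nilpotent. -/
theorem mem_pCore_of_forall_commute {X : Type u} [Group X] [Finite X] {q : ℕ} [hq : Fact q.Prime]
    {k : ℕ} (hnil : Group.IsNilpotent ((⊤ : Subgroup X).lowerCentralSeries k))
    {y : X} (hy : ∃ m : ℕ, orderOf y = q ^ m)
    (hc : ∀ w ∈ Cfsg.pPrimeCore q X, Commute w y) : y ∈ Cfsg.pCore q X := by
  set W := Cfsg.pPrimeCore q X with hW
  haveI : W.Normal := by rw [hW]; infer_instance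
  set π := QuotientGroup.mk' W
  have hWbot : Cfsg.pPrimeCore q (X ⧸ W) = ⊥ := Core.pPrimeCore_quotient_pPrimeCore q X
  set Γ := (⊤ : Subgroup (X ⧸ W)).lowerCentralSeries k with hΓ
  have hΓmap : Γ = ((⊤ : Subgroup X).lowerCentralSeries k).map π := by
    rw [Subgroup.map_lowerCentralSeries, Subgroup.map_top_of_surjective π
      (QuotientGroup.mk'_surjective W)]
  haveI hΓn : Group.IsNilpotent Γ := hΓmap ▸ Core.isNilpotent_map hnil π
  haveI : Γ.Normal := by rw [hΓ]; infer_instance
  have hΓq : IsPGroup q Γ := by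
    rw [IsPGroup.iff_orderOf]
    intro g
    have h : ∀ p : ℕ, p.Prime → p ∣ orderOf g → p = q := by
      intro p hp hpg
      by_contra hpq
      haveI : Fact p.Prime := ⟨hp⟩
      obtain ⟨P⟩ : Nonempty (Sylow p Γ) := inferInstance
      haveI : (P : Subgroup Γ).Normal :=
        Core.isNilpotent_iff_forall_sylow_normal.mp hΓn p ⟨hp⟩ P
      haveI := Sylow.characteristic_of_normal P inferInstance
      have hn : ((P : Subgroup Γ).map Γ.subtype).Normal :=
        Core.normal_map_subtype_of_characteristic _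
      have hle : (P : Subgroup Γ).map Γ.subtype ≤ Cfsg.pPrimeCore q (X ⧸ W) :=
        Core.le_pPrimeCore hn (by
          rw [Core.card_map_subtype, P.card_eq_multiplicity]
          exact ((Nat.coprime_primes hp hq.out).mpr hpq).pow_left _)
      rw [hWbot, le_bot_iff] at hle
      have hP1 : Nat.card (P : Subgroup Γ) = 1 := by
        rw [← Core.card_map_subtype, hle, Subgroup.card_bot]
      have := P.card_eq_multiplicity
      rw [hP1] at this
      have hfac : (Nat.card Γ).factorization p = 0 := by
        by_contra h0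
        exact absurd this.symm (Nat.one_lt_pow h0 hp.one_lt).ne'
      exact (hp.factorization_pos_of_dvd Nat.card_pos.ne'
        (hpg.trans (orderOf_dvd_natCard g))).ne' hfac
    exact ⟨_, Nat.eq_prime_pow_of_unique_prime_dvd (orderOf_pos g).ne'
      fun {d} hd hdg => h d hd hdg⟩
  obtain ⟨P⟩ : Nonempty (Sylow q (X ⧸ W)) := inferInstance
  have hPΓ : Γ ≤ P := hΓq.le_sylow_of_normal P
  haveI : Group.IsNilpotent ((X ⧸ W) ⧸ Γ) := by
    refine nilpotent_iff_lowerCentralSeries.mpr ⟨k, ?_⟩
    rw [← Subgroup.map_top_of_surjective (QuotientGroup.mk' Γ) (QuotientGroup.mk'_surjective Γ),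
      ← Subgroup.map_lowerCentralSeries, ← hΓ, Subgroup.map_eq_bot_iff, QuotientGroup.ker_mk']
  have hPn : (P : Subgroup (X ⧸ W)).Normal := by
    have h2 : ((P.mapSurjective (QuotientGroup.mk'_surjective Γ) : Sylow q _) :
        Subgroup ((X ⧸ W) ⧸ Γ)).Normal :=
      Core.isNilpotent_iff_forall_sylow_normal.mp inferInstance q hq _
    have h3 := h2.comap (QuotientGroup.mk' Γ)
    rwa [Sylow.coe_mapSurjective, Subgroup.comap_map_eq_self (by rwa [QuotientGroup.ker_mk'])] at h3
  obtain ⟨m, hm⟩ := hy
  set K := (P : Subgroup (X ⧸ W)).comap π ⊓ Subgroup.centralizer (W : Set X) with hK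
  haveI : K.Normal := by
    rw [hK]
    haveI := hPn.comap π
    infer_instance
  have hπy : π y ∈ (P : Subgroup (X ⧸ W)) := by
    have hp : IsPGroup q (Subgroup.zpowers (π y)) := by
      obtain ⟨j, -, hj⟩ := (Nat.dvd_prime_pow hq.out).mp (hm ▸ orderOf_map_dvd π y)
      exact IsPGroup.of_card (by rw [Nat.card_zpowers, hj])
    obtain ⟨P', hP'⟩ := hp.exists_le_sylow
    haveI := hPn
    haveI : Subsingleton (Sylow q (X ⧸ W)) := (Sylow.unique_of_normal P hPn).instSubsingleton
    rw [Subsingleton.elim P P']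
    exact hP' (Subgroup.mem_zpowers _)
  have hyK : y ∈ K := ⟨hπy, Subgroup.mem_centralizer_iff.mpr fun w hw => hc w hw⟩
  haveI hKnil : Group.IsNilpotent K := by
    let f : K →* (P : Subgroup (X ⧸ W)) :=
      (π.comp K.subtype).codRestrict _ fun x => x.2.1
    haveI : Group.IsNilpotent (P : Subgroup (X ⧸ W)) := P.isPGroup'.isNilpotent
    refine isNilpotent_of_ker_le_center f (fun x hx => ?_)
    rw [MonoidHom.mem_ker] at hx
    have hxW : (x : X) ∈ W := by
      have h1 : π (x : X) = 1 := congrArg Subtype.val hx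
      exact (QuotientGroup.eq_one_iff _).mp h1
    rw [Subgroup.mem_center_iff]
    intro z
    apply Subtype.ext
    exact (Subgroup.mem_centralizer_iff.mp z.2.2 _ hxW).symm
  have hy' : (⟨y, hyK⟩ : K) ∈ Cfsg.pCore q K := by
    have hp : IsPGroup q (Subgroup.zpowers (⟨y, hyK⟩ : K)) :=
      IsPGroup.of_card (n := m) (by rw [Nat.card_zpowers, ← hm, Subgroup.orderOf_mk])
    obtain ⟨S, hS⟩ := hp.exists_le_sylow
    rw [Core.pCore_eq_sylow S]
    exact hS (Subgroup.mem_zpowers _)
  have := Core.map_pCore_subtype q K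
  exact (this.le ⟨_, hy', rfl⟩).1

end Cfsg.Agent.CommVal
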